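import Groth.Agent.Ega2.VeryAmpleCrit
import Groth.Agent.CycB.ModStalk
import Groth.Prelude.Def_ProjUP

/-!
# Existence part of the universal property of projective space

* `iSup_genLocus_eq_top`: sections generating an invertible module (stalkwise) have generating loci covering `X`.
* `exists_map`: an invertible module with `n + 1` generating sections defines a morphism to `P^n_R`, with an
  isomorphism `r^* O(1) ≅ L` carrying the coordinates to the given sections.
-/

set_option autoImplicit false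
universe u
open CategoryTheory CategoryTheory.Limits AlgebraicGeometry TopologicalSpace Opposite
open Groth.Agent.Fdesc.LocGen
open Groth.Agent.VarietyB Groth.Agent.VarietyB.ProjGlue

namespace Groth.Agent.Ega2.H18.PnExist

variable {X : Scheme.{u}}

/-- Sections of an invertible module which generate it stalkwise: the generating loci cover. -/
theorem iSup_genLocus_eq_top {L : X.Modules} (hL : PicF.IsInvertible L) {ι : Type*}
    (s : ι → ProjUP.Γm L) (hs : ProjUP.GeneratedBy L s) :
    ⨆ i, CohB1.genLocus L (homOf (M := L) (s i)) = ⊤ := by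
  rw [eq_top_iff]
  intro x _
  rw [Opens.mem_iSup]
  by_contra hne
  push Not at hne
  obtain ⟨U, e, hxU, he⟩ := (isInvertible_iff L).mp hL x
  have he' : CycB.ModStalk.IsGenOn L U e := he
  have ht := he'.isGen x hxU
  choose a ha using fun i => he.exists_eq (res L (le_top : U ≤ ⊤) (s i))
  have ha' : ∀ i, X.presheaf.germ U x hxU (a i) ∈ IsLocalRing.maximalIdeal (X.presheaf.stalk x) := by
    intro i
    rw [IsLocalRing.mem_maximalIdeal, mem_nonunits_iff, ← X.mem_basicOpen _ _ hxU,
      ← genLocus_inf_eq (homOf (M := L) (s i)) he ((sec_homOf _ _).trans (ha i))]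
    exact fun h => hne i h.1
  let T := LinearMap.toSpanSingleton (X.presheaf.stalk x) (L.presheaf.stalk x)
    (L.presheaf.germ U x hxU e)
  have hspan : Submodule.span (X.presheaf.stalk x)
      (Set.range fun i => (L.presheaf.germ ⊤ x trivial).hom (s i)) ≤
      Submodule.map T (IsLocalRing.maximalIdeal (X.presheaf.stalk x)) := by
    rw [Submodule.span_le]
    rintro _ ⟨i, rfl⟩
    refine ⟨_, ha' i, ?_⟩
    change X.presheaf.germ U x hxU (a i) • L.presheaf.germ U x hxU e = L.presheaf.germ ⊤ x trivial (s i)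
    rw [← CycB.ModStalk.germ_smul, ← ha i]
    exact L.presheaf.germ_res_apply (homOfLE (le_top : U ≤ ⊤)) x hxU (s i)
  have h1 : T 1 ∈ Submodule.map T (IsLocalRing.maximalIdeal (X.presheaf.stalk x)) :=
    hspan ((hs x).ge trivial)
  obtain ⟨c, hc, hc1⟩ := h1
  have h2 : c = 1 := ht.1 hc1
  rw [h2] at hc
  exact (IsLocalRing.maximalIdeal.isMaximal _).ne_top ((Ideal.eq_top_iff_one _).mpr hc)

section main

attribute [local instance] MvPolynomial.gradedAlgebra

/-- The coordinate `T_i` is `(T_i / T_j) • T_j` over `D_+(T_j)`. -/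
theorem res_coord {R : Type u} [CommRing R] (n : ℕ) (i j : Fin (n + 1)) :
    res (Twist.twist (MvPolynomial.homogeneousSubmodule (Fin (n + 1)) R) 1)
      (le_top : Proj.basicOpen (MvPolynomial.homogeneousSubmodule (Fin (n + 1)) R) (MvPolynomial.X j) ≤ ⊤)
      (ProjUP.coord n R i) =
      (ProjStd.ratio (Fin (n + 1)) R j i) • VeryAmpleCrit.gen R j := by
  refine Subtype.ext (funext fun x => Subtype.ext ?_)
  refine Eq.trans ?_ (TwistBasic.smulS_val (𝒜 := MvPolynomial.homogeneousSubmodule (Fin (n + 1)) R) 1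
    (ProjStd.ratio (Fin (n + 1)) R j i) (VeryAmpleCrit.gen R j) x).symm
  have e1 := ProjStd.ratio_apply (Fin (n + 1)) R j i x
  refine Eq.trans ?_ (congrArg (fun z => z * Localization.mk (MvPolynomial.X j)
    (⟨1, VeryAmpleCrit.one_notMem (MvPolynomial.homogeneousSubmodule (Fin (n + 1)) R) x.1⟩ :
      x.1.asHomogeneousIdeal.toIdeal.primeCompl)) e1).symm
  refine Eq.trans ?_ (Localization.mk_mul _ _ _ _).symm
  refine Localization.mk_eq_mk_iff.mpr ((Localization.r_iff_exists).mpr ⟨1, ?_⟩)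
  simp
  ring

/-- Existence of the morphism to projective space attached to generating sections of an invertible module. -/
theorem exists_map {R : Type u} [CommRing R] (n : ℕ) {X : Scheme.{u}}
    (q : X ⟶ Spec (CommRingCat.of R)) (L : X.Modules)
    (s : Fin (n + 1) → ProjUP.Γm L)
    (hcov : ⨆ i, CohB1.genLocus L (homOf (M := L) (s i)) = ⊤) :
    ∃ (r : X ⟶ CohB1.ProjSpace n R) (_ : r ≫ CohB1.ProjSpace.toSpec n R = q)
      (τ : (Scheme.Modules.pullback r).obj (Twist.twistProjSpace n R 1) ≅ L),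
      ∀ i, τ.hom.app ⊤ (ProjUP.pullSec r (Twist.twistProjSpace n R 1) (ProjUP.coord n R i)) = s i := by
  let σ : Fin (n + 1) → (Coh.structureModule X ⟶ L) := fun i => homOf (M := L) (s i)
  let D : CoordData X (Fin (n + 1)) := PnMap.coordData σ hcov
  let r : X ⟶ CohB1.ProjSpace n R := D.toProjSpace q
  let V : Fin (n + 1) → (CohB1.ProjSpace n R).Opens := fun k =>
    Proj.basicOpen (MvPolynomial.homogeneousSubmodule (Fin (n + 1)) R) (MvPolynomial.X k)
  have hV : ∀ k, r ⁻¹ᵁ V k = CohB1.genLocus L (σ k) := fun k =>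
    D.preimage_basicOpen (fun i k => PnMap.basicOpen_ratio σ i k) q k
  let g : ∀ i, Γ(Twist.twistProjSpace n R 1, V i) := fun i => VeryAmpleCrit.gen R i
  have hg : ∀ i, IsGen (g i) := fun i => VeryAmpleCrit.isGen_gen i
  let r₀ : ∀ i, Fin (n + 1) → Γ(CohB1.ProjSpace n R, V i) := fun i j =>
    ProjStd.ratio (Fin (n + 1)) R i j
  have hratio : ∀ i j, r.app (V i) (r₀ i j) = ores (hV i).le (PnMap.ratio σ i j) := by
    intro i j
    have h1 : PnMap.ratio σ i j = r.appLE (V i) (CohB1.genLocus L (σ i)) (hV i).ge (r₀ i j) :=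
      (PnMap.appLE_ratio D q i j (hV i).ge).symm
    rw [h1, VeryAmpleCrit.ores_appLE, Scheme.Hom.app_eq_appLE]
  have hcV : ⨆ i, r ⁻¹ᵁ V i = ⊤ := by
    rw [← hcov]
    exact iSup_congr fun k => hV k
  have hsec : ∀ i j, sec (σ j) (r ⁻¹ᵁ V i) =
      (r.app (V i) (r₀ i j) : Γ(X, r ⁻¹ᵁ V i)) • sec (σ i) (r ⁻¹ᵁ V i) := by
    intro i j
    rw [hratio, ← PnMap.ratio_spec_le σ i j (hV i).le]
  obtain ⟨τ, hτ⟩ := IsoCocycle.exists_iso (M := (Scheme.Modules.pullback r).obj (Twist.twistProjSpace n R 1))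
    (N := L) (U := fun i => r ⁻¹ᵁ V i) hcV (e := fun i => pullSec r (g i))
    (e' := fun i => sec (σ i) (r ⁻¹ᵁ V i))
    (fun i => (hg i).pullSec r) (fun i => (le_genLocus_iff (σ i) _).mp (hV i).le) (by
      intro j i
      refine ⟨ores inf_le_right (r.app (V i) (r₀ i j)), ?_, ?_⟩
      · have h0 := VeryAmpleCrit.pullSec_rel r (r₀ i j) (g i) (g j) (VeryAmpleCrit.gen_rel (R := R) i j)
        have h2 : r ⁻¹ᵁ V j ⊓ r ⁻¹ᵁ V i ≤ r ⁻¹ᵁ V i ⊓ r ⁻¹ᵁ V j := le_inf inf_le_right inf_le_left
        have h3 := congrArg (res ((Scheme.Modules.pullback r).obj (Twist.twistProjSpace n R 1)) h2) h0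
        rw [res_smul, res_res, res_res, ores_ores] at h3
        exact h3
      · rw [res_sec, ← res_sec (σ j) (inf_le_right : r ⁻¹ᵁ V j ⊓ r ⁻¹ᵁ V i ≤ r ⁻¹ᵁ V i), hsec i j, res_smul])
  refine ⟨r, D.toProjSpace_toSpec q, τ, fun i => ?_⟩
  have hcoord : ∀ j, res (Twist.twistProjSpace n R 1) (le_top : V j ≤ ⊤) (ProjUP.coord n R i) =
      r₀ j i • g j := by
    intro j
    exact res_coord n i j
  refine res_ext L (fun j => r ⁻¹ᵁ V j) (fun j => le_top) (by rw [hcV]) (fun j => ?_)
  rw [← app_res]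
  have h4 : res ((Scheme.Modules.pullback r).obj (Twist.twistProjSpace n R 1)) (le_top : r ⁻¹ᵁ V j ≤ ⊤)
      (ProjUP.pullSec r (Twist.twistProjSpace n R 1) (ProjUP.coord n R i)) =
      (r.app (V j) (r₀ j i) : Γ(X, r ⁻¹ᵁ V j)) • pullSec r (g j) := by
    rw [← pullSec_smul, ← hcoord j]
    exact res_pullSec r (le_top : V j ≤ ⊤) (ProjUP.coord n R i)
  rw [h4, Scheme.Modules.Hom.app_smul, hτ j, ← hsec j i]
  exact sec_homOf (M := L) (s i) _

end main

end Groth.Agent.Ega2.H18.PnExist
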